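import Cfsg.Agent.H148.Oct.SepG2

/-!
# S3509, `G₂(q)`: the automorphisms of the octonions have determinant `1` (helper248)
-/

set_option autoImplicit false
open Cfsg

namespace Cfsg.Agent.H248.G2

open Cfsg.Agent.H161.Oct

variable {F : Type} [Field F]

/-- the determinant of an automorphism of the split octonions over a field with at least three elements -/
theorem det_eq_one [Finite F] (hq : 3 ≤ Nat.card F) : ∀ g ∈ AutO F, LinearMap.det (g : V F →ₗ[F] V F) = 1 := by
  classical
  have : Fintype F := Fintype.ofFinite F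
  have hq' : 3 ≤ Fintype.card F := by rwa [← Nat.card_eq_fintype_card]
  have hs := Cfsg.Agent.H148.Oct.simple_AutO F (Cfsg.Agent.H148.Oct.exists_of_card hq')
  let φ : ↥(AutO F) →* Fˣ := (LinearEquiv.det (R := F) (M := V F)).comp (AutO F).subtype
  have hk : φ.ker = ⊤ := by
    rcases hs.eq_bot_or_eq_top_of_normal φ.ker inferInstance with h | h
    · exfalso
      have hinj : Function.Injective φ := (MonoidHom.ker_eq_bot_iff φ).1 h
      have h1 := Nat.card_le_card_of_injective φ hinj
      rw [Cfsg.Agent.H148.Oct.card_AutO, Nat.card_eq_fintype_card, Fintype.card_units] at h1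
      have h2 : 1 ≤ Fintype.card F ^ 2 - 1 := by
        have : 3 ^ 2 ≤ Fintype.card F ^ 2 := Nat.pow_le_pow_left hq' 2
        omega
      have h3 : 1 ≤ Fintype.card F ^ 6 - 1 := by
        have : 3 ^ 6 ≤ Fintype.card F ^ 6 := Nat.pow_le_pow_left hq' 6
        omega
      have h4 : Fintype.card F ≤ Fintype.card F ^ 6 := Nat.le_self_pow (by norm_num) _
      have h5 : Fintype.card F ^ 6 * 1 * 1 ≤ Fintype.card F ^ 6 * (Fintype.card F ^ 2 - 1) *
          (Fintype.card F ^ 6 - 1) := Nat.mul_le_mul (Nat.mul_le_mul le_rfl h2) h3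
      omega
    · exact h
  intro g hg
  have h1 : φ ⟨g, hg⟩ = 1 := by
    rw [← MonoidHom.mem_ker, hk]
    trivial
  have h2 := congrArg Units.val h1
  simpa [φ, LinearEquiv.coe_det] using h2

end Cfsg.Agent.H248.G2
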